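import Cfsg.Agent.H592.HN.BetaGen
import Cfsg.Agent.H651.HNF.Table
import Cfsg.Agent.H164.M23.ThetaHN
import Cfsg.Agent.H691.M23.FiveOf

/-!
# (M,23) of S4929: the character `θ` of `HN`, assembly (helper592)

`Asm V u T ty` : the class table of `T` (helper651), the values `V (u s)` (helper616) and the fact that the function `θ` of the
table is a generalized character (helper741). `target` : the theorem about `θ` used by helper691's frame.
-/

set_option autoImplicit false

open Cfsg
open Cfsg.Agent.Characters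
open Cfsg.Agent.H651.HNF (Ty Table)
open scoped ComplexConjugate

namespace Cfsg.Agent.H592.HN

universe v

/-- the values of `θ` by the order and the value of `β` -/
def F (k : ℕ) (v : ℤ) : ℤ :=
  if k = 1 then 2375000
  else if k = 2 then (if v = 21 then -1000 else 600)
  else if k = 3 then (if v = 7 then -190 else 80)
  else if k = 4 then (if v = 5 then 40 else 0)
  else if k = 6 then (if v = 3 then -10 else if v = -1 then -6 else 0)
  else if k = 7 then 5
  else if k = 9 then -1
  else if k = 11 then 1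
  else if k = 12 then (if v = -1 then -2 else 0)
  else if k = 14 then 1
  else if k = 21 then -1
  else if k = 22 then 1
  else 0

theorem F_ty : ∀ t : Ty, t ≠ .sing → F t.ord t.b = t.th := by decide +kernel

/-- the types on which `θ` does not vanish -/
def rep : Fin 15 → Ty := ![.c1, .c2A, .c2B, .c3A, .c3B, .c4A, .c6A, .c6B, .c7, .c9, .c11, .c12B, .c14, .c21, .c22]

theorem rep_inj : ∀ i j, rep i = rep j → i = j := by decide +kernel
theorem rep_ne : ∀ i, rep i ≠ .sing := by decide +kernel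
theorem rep_ne19 : ∀ i, rep i ≠ .c19 := by decide +kernel
theorem rep_cen : ∀ i, (rep i).cen = H164.M23.ThetaHN.n i := by decide +kernel
theorem rep_th : ∀ i, (rep i).th = H164.M23.ThetaHN.th i := by decide +kernel
theorem rep_v1 : ∀ i, (rep i).b = H164.M23.ThetaHN.v1 i := by decide +kernel
theorem rep_v2 : ∀ i, ((rep i).pw 2).b = H164.M23.ThetaHN.v2 i := by decide +kernel
theorem rep_v3 : ∀ i, ((rep i).pw 3).b = H164.M23.ThetaHN.v3 i := by decide +kernel
theorem rep_num : ∀ i, (rep i).num ≠ 0 := by decide +kernel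
theorem th_rep : ∀ t : Ty, t.th ≠ 0 → ∃ i, rep i = t := by decide +kernel
theorem pw_ne2 : ∀ t : Ty, t ≠ .sing → t.pw 2 ≠ .sing := by decide +kernel
theorem pw_ne3 : ∀ t : Ty, t ≠ .sing → t.pw 3 ≠ .sing := by decide +kernel
theorem th_sing : Ty.sing.th = 0 := rfl
theorem ord1 : ∀ t : Ty, t.ord = 1 → t = .c1 := by decide +kernel
theorem ord2 : ∀ t : Ty, t.ord = 2 → t.cen = 177408000 → t = .c2A := by decide +kernel
theorem ord11 : ∀ t : Ty, t.ord = 11 → t = .c11 := by decide +kernel
theorem ord22 : ∀ t : Ty, t.ord = 22 → t = .c22 := by decide +kernel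

section

variable {G : Type v} [Group G] [Finite G] {V : G → ℂ} (hV : IsCharacter G V) (hr : ∀ g, ∃ q : ℚ, V g = q)
  {u : G} (hu : orderOf u = 5)
include hV hr hu

/-- `V (u ^ k s) = V (u s)` for `k` prime to `5` and `s` of order prime to `5` -/
theorem upow_eq {s : G} (hs : Commute u s) (h5 : ¬ 5 ∣ orderOf s) {k : ℕ} (hk : ¬ 5 ∣ k) : V (u ^ k * s) = V (u * s) := by
  have hcop : Nat.Coprime 5 (orderOf s) := (Nat.Prime.coprime_iff_not_dvd Nat.prime_five).2 h5
  obtain ⟨m, hm1, hm2⟩ := Nat.chineseRemainder hcop k 1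
  have hpow : (u * s) ^ m = u ^ k * s := by
    rw [hs.mul_pow]
    congr 1
    · rw [pow_eq_pow_iff_modEq, hu]
      exact hm1
    · have : s ^ m = s ^ 1 := by
        rw [pow_eq_pow_iff_modEq]
        exact hm2
      rw [this, pow_one]
  have hmc : m.Coprime (orderOf (u * s)) := by
    have h3 : orderOf (u * s) ∣ 5 * orderOf s := by
      have h4 := hs.orderOf_mul_dvd_mul_orderOf
      rwa [hu] at h4
    refine Nat.Coprime.coprime_dvd_right h3 (Nat.Coprime.mul_right ?_ ?_)
    · rw [Nat.coprime_comm, Nat.Prime.coprime_iff_not_dvd Nat.prime_five]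
      intro h6
      exact hk ((Nat.ModEq.dvd_iff hm1 dvd_rfl).1 h6)
    · have h4 := Nat.ModEq.gcd_eq hm2
      rw [Nat.gcd_one_left] at h4
      rw [Nat.Coprime]
      exact h4
  rw [← hpow, rat_pow hV hr hmc]

/-- `V ((u s) ^ k) = V (u s ^ k)` -/
theorem pow_split {s : G} (hs : Commute u s) (h5 : ¬ 5 ∣ orderOf s) {k : ℕ} (hk : ¬ 5 ∣ k) :
    V ((u * s) ^ k) = V (u * s ^ k) := by
  rw [hs.mul_pow]
  exact upow_eq hV hr hu (hs.pow_right k) (fun h => h5 (h.trans (orderOf_pow_dvd k))) hk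

end

/-- **The assembly.** -/
theorem target {G : Type} [Group G] [Finite G] {V : G → ℂ} (hV : IsCharacter G V) (hr : ∀ g, ∃ q : ℚ, V g = q)
    {u : G} (hu : orderOf u = 5) {T : Subgroup G} [Fintype T] (hT : ∀ s : T, Commute u (s : G)) {ty : T → Ty}
    (tab : Table T ty) (hv : ∀ s : T, ty s ≠ .sing → V (u * s) = ((ty s).b : ℂ))
    (hg : IsGeneralizedCharacter T (fun g => ((ty g).th : ℂ))) {t y : T} (ot : orderOf t = 2)
    (cT : Nat.card (Subgroup.centralizer ({t} : Set T)) = 177408000) (oy : orderOf y = 11) (comm : Commute t y) :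
    ∃ θ : T → ℂ, H691.M23.ThetaOf V u T θ F ∧ V u = 133 ∧ V (u * t) = 21 ∧ V (u * y) = 1 ∧ V (u * (t * y : T)) = -1 ∧
      ∃ m : ℤ, Odd m ∧ classInner (fun s : T =>
        (V (u * s) ^ 4 + 3 * V ((u * s) ^ 2) ^ 2 - 4 * (V (u * s) * V ((u * s) ^ 3))) / 12) θ = m := by
  classical
  -- representatives
  have hex : ∀ i, ∃ g : T, ty g = rep i := by
    intro i
    have h1 := tab.num (rep i) (rep_ne i)
    have h2 : Nat.card {g : T // ty g = rep i} ≠ 0 := by rw [h1]; exact rep_num i
    obtain ⟨⟨g, hg⟩⟩ : Nonempty {g : T // ty g = rep i} := (Nat.card_ne_zero.1 h2).1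
    exact ⟨g, hg⟩
  choose s hs using hex
  have hns : ∀ x : T, ¬ 5 ∣ orderOf x → ty x ≠ .sing := fun x hx h => hx ((tab.sing x).1 h)
  have hns' : ∀ x : T, ty x ≠ .sing → ¬ 5 ∣ orderOf x := fun x hx h => hx ((tab.sing x).2 h)
  have hinj : ∀ i j, IsConj (s i) (s j) → i = j := fun i j h => by
    have h1 := tab.inv _ _ h
    rw [hs, hs] at h1
    exact rep_inj i j h1
  have hn : ∀ i, Nat.card (Subgroup.centralizer ({s i} : Set T)) = H164.M23.ThetaHN.n i := fun i => by
    rw [tab.cent (s i) (by rw [hs]; exact rep_ne i), hs, rep_cen]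
  have h0 : s 0 = 1 := by
    have h1 := tab.ord (s 0) (by rw [hs]; exact rep_ne 0)
    rw [hs] at h1
    exact orderOf_eq_one_iff.1 h1
  have hth : ∀ i, ((ty (s i)).th : ℂ) = H164.M23.ThetaHN.th i := fun i => by rw [hs, rep_th]
  have hz : ∀ x, (∀ i, ¬ IsConj (s i) x) → ((ty x).th : ℂ) = 0 := by
    intro x hx
    by_contra hne
    have h1 : (ty x).th ≠ 0 := fun h => hne (by rw [h]; norm_num)
    obtain ⟨i, hi⟩ := th_rep _ h1
    exact hx i (tab.conj (s i) x (by rw [hs, hi]) (by rw [hs]; exact rep_ne i) (by rw [hs]; exact rep_ne19 i))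
  have hirr := H164.M23.ThetaHN.irr (θ := fun g => ((ty g).th : ℂ)) hinj hn h0 hg hth hz
  have hcl := Core.isIrr_isClassFunction hirr
  have hVc := Core.isCharacter_isClassFunction hV
  have hc : ∀ x ∈ T, x * u * x⁻¹ = u := fun x hx => by
    have h1 := (hT ⟨x, hx⟩).eq
    have h2 : u * x = x * u := h1
    rw [← h2, mul_inv_cancel_right]
  have hty : ∀ {x : T} {τ : Ty}, ty x = τ → τ ≠ .sing → V (u * x) = (τ.b : ℂ) := fun {x τ} h h' => by
    rw [hv x (by rw [h]; exact h'), h]
  refine ⟨fun g => ((ty g).th : ℂ), ⟨hirr, fun x hx => ⟨(ty x).b, hv x (hns x hx), ?_⟩⟩, ?_, ?_, ?_, ?_, 1, odd_one, ?_⟩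
  · show ((ty x).th : ℂ) = _
    rw [tab.ord x (hns x hx), F_ty _ (hns x hx)]
  · have h1 : ty 1 = .c1 := by
      have h2 := tab.ord 1 (hns 1 (by rw [orderOf_one]; norm_num))
      rw [orderOf_one] at h2
      exact ord1 _ h2.symm
    have h2 := hty h1 (by decide)
    rw [OneMemClass.coe_one, mul_one] at h2
    rw [h2]
    norm_num [Ty.b]
  · have h1 : ty t = .c2A := by
      have h3 := hns t (by rw [ot]; norm_num)
      have h2 := tab.ord t h3
      have h4 := tab.cent t h3
      rw [ot] at h2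
      rw [cT] at h4
      exact ord2 _ h2.symm h4.symm
    rw [hty h1 (by decide)]
    norm_num [Ty.b]
  · have h1 : ty y = .c11 := by
      have h2 := tab.ord y (hns y (by rw [oy]; norm_num))
      rw [oy] at h2
      exact ord11 _ h2.symm
    rw [hty h1 (by decide)]
    norm_num [Ty.b]
  · have ho : orderOf (t * y) = 22 := by
      rw [comm.orderOf_mul_eq_mul_orderOf_of_coprime (by rw [ot, oy]; norm_num), ot, oy]
    have h1 : ty (t * y) = .c22 := by
      have h2 := tab.ord (t * y) (hns _ (by rw [ho]; norm_num))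
      rw [ho] at h2
      exact ord22 _ h2.symm
    rw [hty h1 (by decide)]
    norm_num [Ty.b]
  · refine H164.M23.ThetaHN.inner hc hinj hn hcl hth hz hVc ?_ ?_ ?_
    · intro i
      rw [hty (hs i) (rep_ne i), rep_v1]
    · intro i
      have h5 : ¬ 5 ∣ orderOf (s i) := hns' _ (by rw [hs]; exact rep_ne i)
      rw [pow_split hV hr hu (hT (s i)) (by rwa [Subgroup.orderOf_coe]) (by norm_num), ← Subgroup.coe_pow]
      have h1 : ty (s i ^ 2) = (rep i).pw 2 := by
        rw [tab.pow _ 2 Nat.prime_two (by rw [hs]; exact rep_ne i), hs]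
      rw [hty h1 (pw_ne2 _ (rep_ne i)), rep_v2]
    · intro i
      have h5 : ¬ 5 ∣ orderOf (s i) := hns' _ (by rw [hs]; exact rep_ne i)
      rw [pow_split hV hr hu (hT (s i)) (by rwa [Subgroup.orderOf_coe]) (by norm_num), ← Subgroup.coe_pow]
      have h1 : ty (s i ^ 3) = (rep i).pw 3 := by
        rw [tab.pow _ 3 Nat.prime_three (by rw [hs]; exact rep_ne i), hs]
      rw [hty h1 (pw_ne3 _ (rep_ne i)), rep_v3]

end Cfsg.Agent.H592.HN
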